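import Cfsg.Agent.H99.AS.FiA
import Cfsg.Agent.H99.AS.Base
import Cfsg.Agent.SignalizersComponents.CoprimeBasic

/-!
# S3943, the row `Fi₂₂` (helper99), part B

* `uel22` : a solvable subgroup containing `d * y` (`d` a transposition, `y` of order 11 commuting with `d`) has `⟨y⟩` as its only
  subgroup of order 11.
* `index_gt` : proper subgroups have index `> 440`.
* `row_fi22 : AS2 K`.
-/

set_option autoImplicit false
set_option linter.unusedSectionVars false

namespace Cfsg.Agent.H99.AS.Fi

open Cfsg Subgroup Cfsg.Agent.H518.SU Cfsg.Agent.LThreeFi22 Cfsg.Agent.KFacts.FiTT Cfsg.Agent.R01.Label Cfsg.Agent.R01.Lifts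
open Cfsg.Agent.SporRec.GF4 Cfsg.Agent.SignalizersComponents.CoprimeBasic

universe u v

variable {K : Type v} [Group K] (e : K ≃* Spor.Fi22)

/-- a solvable `11'`-group in the centraliser of a transposition normalised by `y` of order 11 is centralised by `y` -/
theorem cent_of_norm {d y : K} (hy : orderOf y = 11) (hd : d ∈ Fx (TK e) y) (R : Subgroup K)
    (hR : Group.IsSolvable R) (hRd : ∀ u ∈ R, u * d = d * u) (hRy : ∀ u ∈ R, y * u * y⁻¹ ∈ R)
    (h11 : ¬ 11 ∣ Nat.card R) : ∀ u ∈ R, y * u = u * y := by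
  have C := Inst.ctx e
  have hfin := C.finite
  obtain ⟨π, lift, B⟩ := Inst.base_at e hd.1
  have hp : Nat.Prime 11 := by norm_num
  have hyd : y * d = d * y := hd.2
  have hdd : d * d = 1 := C.sq d hd.1
  have hd1 : d ≠ 1 := C.ne1 d hd.1
  have hy11 : y ^ 11 = 1 := by rw [← hy, pow_orderOf_eq_one]
  have hyC : y ∈ centralizer ({d} : Set K) := mem_centralizer_singleton_iff.2 hyd
  set y' : centralizer ({d} : Set K) := ⟨y, hyC⟩ with hy'
  have ho : orderOf (π y') = 11 := by
    have h1 : (π y') ^ 11 = 1 := by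
      rw [← map_pow, show y' ^ 11 = 1 from Subtype.ext hy11, map_one]
    rcases (Nat.dvd_prime hp).1 (orderOf_dvd_of_pow_eq_one h1) with h | h
    · exfalso
      rw [orderOf_eq_one_iff] at h
      rcases (B.lab.ext.ker _).1 h with h2 | h2
      · have h3 : y = 1 := congrArg Subtype.val h2
        rw [h3, orderOf_one] at hy
        norm_num at hy
      · have h3 : y = d := congrArg Subtype.val h2
        have h4 : y ^ 2 = 1 := by rw [h3, pow_two, hdd]
        have h5 := orderOf_dvd_of_pow_eq_one h4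
        rw [hy] at h5
        norm_num at h5
    · exact h
  set M : Subgroup K := R ⊔ zpowers y with hM
  have hMC : M ≤ centralizer ({d} : Set K) := by
    rw [hM, sup_le_iff, zpowers_le]
    exact ⟨fun u hu => mem_centralizer_singleton_iff.2 (hRd u hu), hyC⟩
  have hyn : y ∈ normalizer (R : Set K) := mem_normalizer_fintype hRy
  have hMs : Group.IsSolvable M := by
    refine isSolvable_sup ?_ hR ?_
    · rwa [zpowers_le]
    · exact Group.isSolvable_of_comm fun a b => by
        obtain ⟨a, i, rfl⟩ := a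
        obtain ⟨b, j, rfl⟩ := b
        exact Subtype.ext (by
          show y ^ i * y ^ j = y ^ j * y ^ i
          rw [← zpow_add, ← zpow_add, add_comm])
  set M' : Subgroup (centralizer ({d} : Set K)) := M.subgroupOf (centralizer ({d} : Set K)) with hM'
  have hMs' : Group.IsSolvable M' := by
    refine Group.isSolvable_of_isSolvable_injective (f := (subgroupOfEquivOfLe hMC).toMonoidHom) ?_
    exact (subgroupOfEquivOfLe hMC).injective
  have hMπ : Group.IsSolvable (M'.map π) :=
    Group.isSolvable_of_surjective (f := π.subgroupMap M') (MonoidHom.subgroupMap_surjective _ _)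
  have hyM : y ∈ M := (le_sup_right : zpowers y ≤ M) (mem_zpowers y)
  have hyM' : π y' ∈ M'.map π := ⟨y', by rw [hM']; exact mem_subgroupOf.2 hyM, rfl⟩
  intro u hu
  have huC : u ∈ centralizer ({d} : Set K) := mem_centralizer_singleton_iff.2 (hRd u hu)
  set u' : centralizer ({d} : Set K) := ⟨u, huC⟩ with hu'
  have huM : u ∈ M := (le_sup_left : R ≤ M) hu
  have h1 : π (u' * y' * u'⁻¹) ∈ zpowers (π y') := by
    refine el_psu ho _ hMπ hyM' _ ?_ ?_
    · refine ⟨_, ?_, rfl⟩
      rw [hM']
      exact mem_subgroupOf.2 (M.mul_mem (M.mul_mem huM hyM) (M.inv_mem huM))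
    · rw [map_mul, map_mul, map_inv]
      exact (MulEquiv.orderOf_eq (MulAut.conj (π u')) (π y')).trans ho
  obtain ⟨k, hk⟩ := mem_zpowers_iff.1 h1
  have hk1 : u * y * u⁻¹ = y ^ k ∨ u * y * u⁻¹ = y ^ k * d := by
    rw [← map_zpow] at hk
    rcases B.lab.ext.map_eq.1 hk.symm with h | h
    · exact Or.inl (congrArg Subtype.val h)
    · exact Or.inr (congrArg Subtype.val h)
  have hconj : (u * y * u⁻¹) ^ 11 = 1 := by rw [conj_pow, hy11]; group
  have hk2 : u * y * u⁻¹ = y ^ k := by
    rcases hk1 with h | h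
    · exact h
    · exfalso
      rw [h] at hconj
      have hc : Commute (y ^ k) d := (show Commute y d from hyd).zpow_left k
      rw [hc.mul_pow, ← zpow_natCast (y ^ k), zpow_comm, zpow_natCast, hy11, one_zpow, one_mul] at hconj
      apply hd1
      calc d = d ^ 11 * ((d * d)⁻¹) ^ 5 := by group
        _ = 1 := by rw [hconj, hdd, inv_one, one_pow, one_mul]
  have hw : u * (y * u⁻¹ * y⁻¹) = y ^ (k - 1) := by
    rw [zpow_sub_one, ← hk2]; group
  have hwR : u * (y * u⁻¹ * y⁻¹) ∈ R := R.mul_mem hu (hRy _ (R.inv_mem hu))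
  have hw1 : u * (y * u⁻¹ * y⁻¹) = 1 := by
    set w := u * (y * u⁻¹ * y⁻¹) with hwdef
    have h2 : w ^ 11 = 1 := by
      rw [hw, ← zpow_natCast, zpow_comm, zpow_natCast, hy11, one_zpow]
    have h3 : orderOf w ∣ Nat.card R := by
      rw [← Subgroup.orderOf_mk w hwR]
      exact orderOf_dvd_natCard _
    rcases (Nat.dvd_prime hp).1 (orderOf_dvd_of_pow_eq_one h2) with h | h
    · exact orderOf_eq_one_iff.1 h
    · exact absurd (h ▸ h3) h11
  calc y * u = (u * (y * u⁻¹ * y⁻¹))⁻¹ * (u * y) := by group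
    _ = u * y := by rw [hw1, inv_one, one_mul]

/-- a `t`-group (`t ≠ 11`) normalised by the commuting elements `d` (a transposition) and `y` (of order 11) is centralised
by `y` -/
theorem cent_core {d y : K} (hy : orderOf y = 11) (hd : d ∈ Fx (TK e) y) {t : ℕ} (ht : t.Prime) (ht11 : t ≠ 11)
    (Q : Subgroup K) (hQ : IsPGroup t Q) (hdQ : ∀ u ∈ Q, d * u * d⁻¹ ∈ Q) (hyQ : ∀ u ∈ Q, y * u * y⁻¹ ∈ Q) :
    ∀ u ∈ Q, y * u = u * y := by
  have C := Inst.ctx e
  have hfin := C.finite
  have : Fact t.Prime := ⟨ht⟩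
  have hp : Nat.Prime 11 := by norm_num
  have hyd : y * d = d * y := hd.2
  have hdd : d * d = 1 := C.sq d hd.1
  have hdi : d⁻¹ = d := inv_eq_of_mul_eq_one_left hdd
  obtain ⟨k, hk⟩ := (IsPGroup.iff_card).1 hQ
  have hnd : ∀ R : Subgroup K, R ≤ Q → ¬ 11 ∣ Nat.card R := by
    intro R hR h
    have h1 : 11 ∣ t ^ k := hk ▸ h.trans (Subgroup.card_dvd_of_le hR)
    exact ht11 ((Nat.prime_dvd_prime_iff_eq hp ht).1 (hp.dvd_of_dvd_pow h1)).symm
  -- the centraliser of `d` in `Q`
  set R : Subgroup K := Q ⊓ centralizer ({d} : Set K) with hR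
  have hRs : Group.IsSolvable R := by
    have h1 : IsPGroup t R := hQ.to_le inf_le_left
    have h2 : Group.IsNilpotent R := h1.isNilpotent
    infer_instance
  have hRc : ∀ u ∈ R, y * u = u * y := by
    refine cent_of_norm e hy hd R hRs (fun u hu => mem_centralizer_singleton_iff.1 hu.2) ?_ (hnd R inf_le_left)
    rintro u ⟨hu, hud⟩
    refine ⟨hyQ u hu, mem_centralizer_singleton_iff.2 ?_⟩
    have h1 : u * d = d * u := mem_centralizer_singleton_iff.1 hud
    have h2 : y⁻¹ * d = d * y⁻¹ := by
      calc y⁻¹ * d = y⁻¹ * (d * y) * y⁻¹ := by group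
        _ = y⁻¹ * (y * d) * y⁻¹ := by rw [hyd]
        _ = d * y⁻¹ := by group
    calc y * u * y⁻¹ * d = y * u * (y⁻¹ * d) := by group
      _ = y * (u * d) * y⁻¹ := by rw [h2]; group
      _ = (y * d) * u * y⁻¹ := by rw [h1]; group
      _ = d * (y * u * y⁻¹) := by rw [hyd]; group
  by_cases ht2 : t = 2
  · subst ht2
    have h1 : y ∈ centralizer (Q : Set K) := by
      refine Cfsg.Agent.H225.AxB.axb (p := 2) (V := Q) (D := zpowers d) hQ ?_ ?_ ?_ ?_ ?_ ?_
      · rw [zpowers_le]
        exact mem_normalizer_fintype hdQ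
      · intro x hx
        obtain ⟨i, rfl⟩ := mem_zpowers_iff.1 hx
        refine ⟨1, ?_⟩
        have : (d ^ i) ^ 2 ^ 1 = 1 := by
          rw [pow_one, ← zpow_natCast, zpow_comm, zpow_natCast, pow_two, hdd, one_zpow]
        rw [this]
        exact one_mem _
      · exact mem_normalizer_fintype hyQ
      · rw [hy]; norm_num
      · intro x hx
        obtain ⟨i, rfl⟩ := mem_zpowers_iff.1 hx
        have h2 : Commute y d := hyd
        have h3 : d ^ i * y * (d ^ i)⁻¹ * y⁻¹ = 1 := by
          rw [← (h2.zpow_right i).eq]; group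
        rw [h3]
        exact one_mem _
      · intro v hv hc
        exact hRc v ⟨hv, mem_centralizer_singleton_iff.2 (hc d (mem_zpowers d)).symm⟩
    intro u hu
    exact (mem_centralizer_iff.1 h1 u hu).symm
  · -- `C(y)` has order 22
    have hcy : ∀ u ∈ Q, y * u = u * y → u = 1 := by
      intro u hu h
      have h1 : u ∈ centralizer ({y} : Set K) := mem_centralizer_singleton_iff.2 h.symm
      have h2 : orderOf u ∣ 22 := by
        rw [← H713.Spor.Fi22.cent_11 e hy, ← Subgroup.orderOf_mk u h1]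
        exact orderOf_dvd_natCard _
      have h3 : orderOf u ∣ t ^ k := by
        rw [← hk, ← Subgroup.orderOf_mk u hu]
        exact orderOf_dvd_natCard _
      have h4 : Nat.Coprime (t ^ k) 22 := by
        apply Nat.Coprime.pow_left
        rw [show 22 = 2 * 11 by norm_num]
        exact ((Nat.coprime_primes ht Nat.prime_two).2 ht2).mul_right ((Nat.coprime_primes ht hp).2 ht11)
      have h5 : orderOf u ∣ 1 := by
        rw [← h4]
        exact Nat.dvd_gcd h3 h2
      exact orderOf_eq_one_iff.1 (Nat.dvd_one.1 h5)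
    -- `d` inverts `Q`
    have hinv : ∀ u ∈ Q, d * u * d⁻¹ = u⁻¹ := by
      let φ : Q →* Q :=
        { toFun := fun u => ⟨d * u * d⁻¹, hdQ u u.2⟩
          map_one' := Subtype.ext (by show d * 1 * d⁻¹ = 1; group)
          map_mul' := fun a b => Subtype.ext (by show d * (a * b) * d⁻¹ = d * a * d⁻¹ * (d * b * d⁻¹); group) }
      have h1 : MonoidHom.FixedPointFree φ := by
        intro u hu
        have h2 : d * (u : K) * d⁻¹ = u := congrArg Subtype.val hu
        apply Subtype.ext
        refine hcy u u.2 (hRc u ⟨u.2, mem_centralizer_singleton_iff.2 (mul_inv_eq_iff_eq_mul.1 h2).symm⟩)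
      have h2 : Function.Involutive φ := by
        intro u
        apply Subtype.ext
        show d * (d * u * d⁻¹) * d⁻¹ = u
        calc d * (d * (u : K) * d⁻¹) * d⁻¹ = (d * d) * u * (d * d)⁻¹ := by group
          _ = u := by rw [hdd]; group
      have h3 := MonoidHom.FixedPointFree.coe_eq_inv_of_involutive h1 h2
      intro u hu
      exact congrArg Subtype.val (congrFun h3 ⟨u, hu⟩)
    -- the order of `Q`
    have hmod : Nat.card Q ≡ 1 [MOD 11] := by
      have h1 := fix_modEq (r := 11) hp (y := y) (by rw [← hy, pow_orderOf_eq_one]) (S := (Q : Set K)) hyQ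
      have h2 : {s | s ∈ (Q : Set K) ∧ y * s = s * y} = {1} := by
        ext s
        constructor
        · rintro ⟨hs, h⟩
          exact hcy s hs h
        · intro h
          rw [Set.mem_singleton_iff] at h
          rw [h]
          exact ⟨Q.one_mem, by simp⟩
      rw [h2, Set.ncard_singleton] at h1
      exact h1
    have hdvd : t ^ k ∣ 2 ^ 17 * 3 ^ 9 * 5 ^ 2 * 7 * 11 * 13 := by
      have h1 := Subgroup.card_subgroup_dvd_card Q
      rw [C.card, hk] at h1
      rwa [show 2 ^ 17 * 3 ^ 9 * 5 ^ 2 * 7 * 11 * 13 = 64561751654400 by norm_num]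
    rw [hk] at hmod
    have hk0 : k = 0 := by
      by_contra hk0
      have htd : t ∣ 2 ^ 17 * 3 ^ 9 * 5 ^ 2 * 7 * 11 * 13 := (dvd_pow_self t hk0).trans hdvd
      have ht3 : t = 3 ∨ t = 5 ∨ t = 7 ∨ t = 13 := by
        have hpp : ∀ {a : ℕ}, a.Prime → ∀ n, t ∣ a ^ n → t = a := fun ha n h =>
          (Nat.prime_dvd_prime_iff_eq ht ha).1 (ht.dvd_of_dvd_pow h)
        rcases (ht.dvd_mul).1 htd with h | h
        · rcases (ht.dvd_mul).1 h with h | h
          · rcases (ht.dvd_mul).1 h with h | h
            · rcases (ht.dvd_mul).1 h with h | h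
              · rcases (ht.dvd_mul).1 h with h | h
                · exact absurd (hpp Nat.prime_two _ h) ht2
                · exact Or.inl (hpp Nat.prime_three _ h)
              · exact Or.inr (Or.inl (hpp Nat.prime_five _ h))
            · exact Or.inr (Or.inr (Or.inl ((Nat.prime_dvd_prime_iff_eq ht (by norm_num)).1 h)))
          · exact absurd ((Nat.prime_dvd_prime_iff_eq ht hp).1 h) ht11
        · exact Or.inr (Or.inr (Or.inr ((Nat.prime_dvd_prime_iff_eq ht (by norm_num)).1 h)))
      rcases ht3 with rfl | rfl | rfl | rfl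
      · have hk9 : k ≤ 9 := by
          by_contra h
          have h1 : 3 ^ 10 ∣ 2 ^ 17 * 3 ^ 9 * 5 ^ 2 * 7 * 11 * 13 := (pow_dvd_pow 3 (by omega)).trans hdvd
          revert h1
          norm_num
        have hk5 : k = 5 := by
          unfold Nat.ModEq at hmod
          interval_cases k <;> simp at hmod hk0 ⊢
        subst hk5
        exact no_three C hd.1 Q hk hinv
      · have hk2 : k ≤ 2 := by
          by_contra h
          have h1 : 5 ^ 3 ∣ 2 ^ 17 * 3 ^ 9 * 5 ^ 2 * 7 * 11 * 13 := (pow_dvd_pow 5 (by omega)).trans hdvd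
          revert h1
          norm_num
        unfold Nat.ModEq at hmod
        interval_cases k <;> simp at hmod hk0
      · have hk2 : k ≤ 1 := by
          by_contra h
          have h1 : 7 ^ 2 ∣ 2 ^ 17 * 3 ^ 9 * 5 ^ 2 * 7 * 11 * 13 := (pow_dvd_pow 7 (by omega)).trans hdvd
          revert h1
          norm_num
        unfold Nat.ModEq at hmod
        interval_cases k <;> simp at hmod hk0
      · have hk2 : k ≤ 1 := by
          by_contra h
          have h1 : 13 ^ 2 ∣ 2 ^ 17 * 3 ^ 9 * 5 ^ 2 * 7 * 11 * 13 := (pow_dvd_pow 13 (by omega)).trans hdvd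
          revert h1
          norm_num
        unfold Nat.ModEq at hmod
        interval_cases k <;> simp at hmod hk0
    have hQ1 : Q = ⊥ := Subgroup.eq_bot_of_card_eq _ (by rw [hk, hk0, pow_zero])
    intro u hu
    rw [hQ1, mem_bot] at hu
    rw [hu]; simp

/-- **Solvable subgroups containing `d * y` have only one subgroup of order 11.** -/
theorem uel22 {d y : K} (hy : orderOf y = 11) (hd : d ∈ Fx (TK e) y) : H99.AS.Uel 11 (d * y) := by
  have C := Inst.ctx e
  have hfin := C.finite
  have hp : Nat.Prime 11 := by norm_num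
  have : Fact (Nat.Prime 11) := ⟨hp⟩
  have hyd : Commute d y := hd.2.symm
  have hd2 : d ^ 2 = 1 := by rw [pow_two]; exact C.sq d hd.1
  have hy11 : y ^ 11 = 1 := by rw [← hy, pow_orderOf_eq_one]
  intro M hM hs
  have hdM : d ∈ M := by
    have h1 := M.pow_mem hs 11
    rw [hyd.mul_pow, hy11, mul_one, show 11 = 2 * 5 + 1 by norm_num, pow_succ, pow_mul, hd2, one_pow, one_mul] at h1
    exact h1
  have hyM : y ∈ M := by
    have h1 := M.mul_mem (M.inv_mem hdM) hs
    rwa [inv_mul_cancel_left] at h1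
  have hy' : orderOf (⟨y, hyM⟩ : M) = 11 ^ 1 := by rw [Subgroup.orderOf_mk, hy, pow_one]
  have key : ∀ u : M, orderOf u = 11 → u ∈ zpowers (⟨y, hyM⟩ : M) := by
    refine solv_unique hp le_rfl hy' ?_ ?_
    · intro t ht ht11 T hTn hT u hu
      rw [Nat.sub_self, pow_zero, pow_one]
      have h1 := cent_core e hy hd ht ht11 (T.map M.subtype) (hT.map _) ?_ ?_ (u : K) ⟨u, hu, rfl⟩
      · exact Subtype.ext h1
      · rintro _ ⟨x, hx, rfl⟩
        exact ⟨⟨d, hdM⟩ * x * ⟨d, hdM⟩⁻¹, hTn.conj_mem x hx _, rfl⟩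
      · rintro _ ⟨x, hx, rfl⟩
        exact ⟨⟨y, hyM⟩ * x * ⟨y, hyM⟩⁻¹, hTn.conj_mem x hx _, rfl⟩
    · intro u v hu hv huv
      -- `v` lies in the centraliser of `u`, of order 22
      have hu' : orderOf (u : K) = 11 := by rw [Subgroup.orderOf_coe, hu]
      have hc := H713.Spor.Fi22.cent_11 e hu'
      by_contra hne
      have h1 : IsPGroup 11 (zpowers (u : K) ⊔ zpowers (v : K) : Subgroup K) := by
        have h2 : ∀ x : K, orderOf x = 11 → IsPGroup 11 (zpowers x) := fun x hx =>
          IsPGroup.of_card (n := 1) (by rw [Nat.card_zpowers, hx, pow_one])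
        refine IsPGroup.to_sup_of_normal_right' (h2 _ hu') (h2 _ (by rw [Subgroup.orderOf_coe, hv])) ?_
        rw [zpowers_le]
        refine mem_normalizer_fintype ?_
        rintro _ ⟨i, rfl⟩
        have h3 : (u : K) * v = v * u := congrArg Subtype.val huv
        have h4 : Commute (u : K) ((v : K) ^ i) := (show Commute (u : K) v from h3).zpow_right i
        have h5 : (u : K) * (v : K) ^ i * (u : K)⁻¹ = (v : K) ^ i := by rw [h4.eq]; group
        show (u : K) * (v : K) ^ i * (u : K)⁻¹ ∈ _
        rw [h5]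
        exact ⟨i, rfl⟩
      obtain ⟨n, hn⟩ := IsPGroup.iff_card.1 h1
      have h2 : 11 ^ n ∣ 64561751654400 := by
        rw [← hn, ← C.card]; exact Subgroup.card_subgroup_dvd_card _
      have h3 : n ≤ 1 := by
        by_contra h
        have h4 : 11 ^ 2 ∣ 64561751654400 := (pow_dvd_pow 11 (by omega)).trans h2
        revert h4
        norm_num
      have h4 : zpowers (u : K) = zpowers (u : K) ⊔ zpowers (v : K) := by
        apply Subgroup.eq_of_le_of_card_ge le_sup_left
        rw [hn, Nat.card_zpowers, hu']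
        calc 11 ^ n ≤ 11 ^ 1 := Nat.pow_le_pow_right (by norm_num) h3
          _ = 11 := pow_one _
      have h5 : (v : K) ∈ zpowers (u : K) := by
        rw [h4]
        exact (le_sup_right : zpowers (v : K) ≤ _) (mem_zpowers _)
      apply hne
      obtain ⟨i, hi⟩ := mem_zpowers_iff.1 h5
      exact mem_zpowers_iff.2 ⟨i, Subtype.ext hi⟩
  have hA : ∀ A : Subgroup K, A ≤ M → Nat.card A = 11 → A = zpowers y := by
    intro A hA hAc
    apply Subgroup.eq_of_le_of_card_ge
    · intro a ha
      by_cases ha1 : a = 1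
      · rw [ha1]; exact one_mem _
      have h1 : orderOf a = 11 := by
        have h2 : orderOf a ∣ 11 := by
          rw [← hAc, ← Subgroup.orderOf_mk a ha]; exact orderOf_dvd_natCard _
        rcases (Nat.dvd_prime hp).1 h2 with h | h
        · exact absurd (orderOf_eq_one_iff.1 h) ha1
        · exact h
      obtain ⟨i, hi⟩ := mem_zpowers_iff.1 (key ⟨a, hA ha⟩ (by rw [Subgroup.orderOf_mk, h1]))
      exact mem_zpowers_iff.2 ⟨i, congrArg Subtype.val hi⟩
    · rw [Nat.card_zpowers, hy, hAc]
  intro A B hAM hBM hAc hBc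
  rw [hA A hAM hAc, hA B hBM hBc]

include e in
/-- **Proper subgroups have index at least 672.** -/
theorem index_ge [IsSimpleGroup K] (H : Subgroup K) (hH : H ≠ ⊤) : 672 ≤ H.index := by
  have C := Inst.ctx e
  have hfin := C.finite
  obtain ⟨d, hdT, hdH⟩ : ∃ d ∈ TK e, d ∉ H := by
    by_contra h
    push Not at h
    have h1 : Subgroup.closure (TK e) ≤ H := (Subgroup.closure_le _).2 h
    have h2 : (Subgroup.closure (TK e)).Normal := by
      constructor
      intro n hn g
      have h3 : (Subgroup.closure (TK e)).map (MulAut.conj g).toMonoidHom ≤ Subgroup.closure (TK e) := by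
        rw [MonoidHom.map_closure, Subgroup.closure_le]
        rintro _ ⟨t, ht, rfl⟩
        exact Subgroup.subset_closure (C.conj t ht g)
      exact h3 ⟨n, hn, rfl⟩
    rcases h2.eq_bot_or_eq_top with h3 | h3
    · obtain ⟨a, ha, -⟩ := C.mupos
      have h4 : a ∈ Subgroup.closure (TK e) := Subgroup.subset_closure ha
      rw [h3, mem_bot] at h4
      exact C.ne1 a ha h4
    · rw [h3, top_le_iff] at h1
      exact hH h1
  obtain ⟨π, lift, B⟩ := Inst.base_at e hdT
  have hdC : d ∈ centralizer ({d} : Set K) := mem_centralizer_singleton_iff.2 rfl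
  set L : Subgroup (centralizer ({d} : Set K)) := H.subgroupOf (centralizer ({d} : Set K)) with hL
  have hne : L.map π ≠ ⊤ := by
    intro h
    have hLn : L.Normal := by
      constructor
      intro n hn g
      obtain ⟨l, hl, hlg⟩ : π g ∈ L.map π := by rw [h]; trivial
      rcases B.lab.ext.map_eq.1 hlg.symm with h1 | h1
      · rw [h1]
        exact L.mul_mem (L.mul_mem hl hn) (L.inv_mem hl)
      · rw [h1]
        have h2 := B.lab.ext.comm n
        have h3 : l * R01.Start.zel d * n * (l * R01.Start.zel d)⁻¹ = l * n * l⁻¹ := by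
          calc l * R01.Start.zel d * n * (l * R01.Start.zel d)⁻¹ =
                l * (R01.Start.zel d * n) * (R01.Start.zel d)⁻¹ * l⁻¹ := by group
            _ = l * n * l⁻¹ := by rw [← h2]; group
        rw [h3]
        exact L.mul_mem (L.mul_mem hl hn) (L.inv_mem hl)
    have hperf : _root_.commutator (centralizer ({d} : Set K)) ≤ L := by
      rw [_root_.commutator_def, Subgroup.commutator_le]
      intro a _ b _
      obtain ⟨l, hl, hla⟩ : π a ∈ L.map π := by rw [h]; trivial
      have h4 : a * b * a⁻¹ * b⁻¹ = l * b * l⁻¹ * b⁻¹ := by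
        rcases B.lab.ext.map_eq.1 hla.symm with h1 | h1
        · rw [h1]
        · rw [h1]
          have h2 := B.lab.ext.comm b
          calc l * R01.Start.zel d * b * (l * R01.Start.zel d)⁻¹ * b⁻¹ =
                l * (R01.Start.zel d * b) * (R01.Start.zel d)⁻¹ * l⁻¹ * b⁻¹ := by group
            _ = l * b * l⁻¹ * b⁻¹ := by rw [← h2]; group
      rw [commutatorElement_def, h4]
      have h5 : l * b * l⁻¹ * b⁻¹ = l * (b * l⁻¹ * b⁻¹) := by group
      rw [h5]
      exact L.mul_mem hl (hLn.conj_mem _ (L.inv_mem hl) b)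
    rw [B.lab.perf, top_le_iff] at hperf
    have h1 : (⟨d, hdC⟩ : centralizer ({d} : Set K)) ∈ L := by rw [hperf]; trivial
    exact hdH (mem_subgroupOf.1 h1)
  have h1 := (Cfsg.Agent.S2153.result (F := F4) (by rw [card_F4]; norm_num) 6 (by norm_num) le_rfl).1 _ hne
  have h2 : (L.map π).index ≤ L.index := Nat.le_of_dvd (Nat.pos_of_ne_zero Subgroup.index_ne_zero_of_finite)
    (Subgroup.index_map_dvd _ B.lab.ext.surj)
  have h3 : L.index ≤ H.index := by
    have h4 := Subgroup.relIndex_le_of_le_right (H := H) (K := centralizer ({d} : Set K)) (L := ⊤) le_top (by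
      rw [Subgroup.relIndex_top_right]; exact Subgroup.index_ne_zero_of_finite)
    rwa [Subgroup.relIndex_top_right] at h4
  calc 672 = 2 ^ (6 - 1) * (2 ^ 6 - 1) / 3 := by norm_num
    _ ≤ (L.map π).index := h1
    _ ≤ _ := h2.trans h3

end Cfsg.Agent.H99.AS.Fi

namespace Cfsg.Agent.H99.AS

open Cfsg Subgroup Cfsg.Agent.LThreeFi22 Cfsg.Agent.KFacts.FiTT Cfsg.Agent.H965.AS

universe u

/-- **`AS2` for `Fi₂₂`.** -/
theorem row_fi22 {K : Type u} [Group K] [Finite K] [IsSimpleGroup K] (h : Spor.IsoFi22 K) : AS2 K := by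
  obtain ⟨e⟩ := h
  have C := Inst.ctx e
  have hp : Nat.Prime 11 := by norm_num
  have : Fact (Nat.Prime 11) := ⟨hp⟩
  obtain ⟨y, hy⟩ := exists_prime_orderOf_dvd_card' (G := K) 11 (by rw [C.card]; norm_num)
  have hy11 : y ^ 11 = 1 := by rw [← hy, pow_orderOf_eq_one]
  obtain ⟨d, hd⟩ := H713.Spor.Fi22.exists_eleven C hy11
  have hcen : center K = ⊥ := by
    rcases (inferInstance : (center K).Normal).eq_bot_or_eq_top with h1 | h1
    · exact h1
    · exfalso
      obtain ⟨a, ha, b, hb, c, hc, hab, -⟩ := C.mupos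
      apply hab
      have h2 : a ∈ center K := by rw [h1]; trivial
      exact ((mem_center_iff.1 h2) b).symm
  have hyd : Commute d y := hd.2.symm
  have hd2 : d ^ 2 = 1 := by rw [pow_two]; exact C.sq d hd.1
  refine of_uel hcen hp (Fi.uel22 e hy hd) (A := zpowers y) ?_ (by rw [Nat.card_zpowers, hy]) ?_
  · rw [zpowers_le]
    refine mem_zpowers_iff.2 ⟨12, ?_⟩
    show (d * y) ^ (12 : ℤ) = y
    rw [show (12 : ℤ) = ((12 : ℕ) : ℤ) by norm_num, zpow_natCast, hyd.mul_pow, show 12 = 2 * 6 by norm_num, pow_mul d,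
      hd2, one_pow, one_mul, show 2 * 6 = 11 + 1 by norm_num, pow_succ, hy11, one_mul]
  · intro H hH
    have h1 : centralizer ((zpowers y : Subgroup K) : Set K) = centralizer {y} := by
      rw [zpowers_eq_closure, centralizer_closure]
    rw [h1, H713.Spor.Fi22.cent_11 e hy]
    have h2 := Fi.index_ge e H hH
    omega

end Cfsg.Agent.H99.AS
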